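import Mathlib
set_option autoImplicit false
set_option linter.unusedSectionVars false

/-!
Counting involutions in extraspecial-like 2-groups through maximal elementary abelian subgroups.
-/

namespace Cfsg.Agent.Asch.ExtraCount

open scoped Classical

/-- `z` is a central involution, all commutators and squares lie in `{1, z}`, and the centre is `{1, z}` -/
structure ExSp (G : Type*) [Group G] (z : G) : Prop where
  central : ∀ x, z * x = x * z
  ne_one : z ≠ 1
  sq : z * z = 1
  com : ∀ x y : G, x * y = y * x ∨ x * y = z * (y * x)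
  sqs : ∀ x : G, x * x = 1 ∨ x * x = z
  cen : ∀ x : G, (∀ y, x * y = y * x) → x = 1 ∨ x = z

variable {G : Type*} [Group G] {z : G}

/-- sign of the commutator -/
noncomputable def chi (x y : G) : ℤ := if x * y = y * x then 1 else -1

/-- sign of the square -/
noncomputable def sg (x : G) : ℤ := if x * x = 1 then 1 else -1

theorem chi_comm (x y : G) : chi x y = chi y x := by
  unfold chi
  simp only [eq_comm]

namespace ExSp

variable (h : ExSp G z)
include h

theorem z_mul_ne (g : G) : z * g ≠ g := by
  intro h1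
  exact h.ne_one (mul_eq_right.1 h1)

theorem chi_cases (x y : G) : (chi x y = 1 ∧ x * y = y * x) ∨ (chi x y = -1 ∧ x * y = z * (y * x)) := by
  unfold chi
  rcases h.com x y with h1 | h1
  · left; exact ⟨if_pos h1, h1⟩
  · right
    refine ⟨if_neg ?_, h1⟩
    rw [h1]
    exact h.z_mul_ne _

theorem sg_cases (x : G) : (sg x = 1 ∧ x * x = 1) ∨ (sg x = -1 ∧ x * x = z) := by
  unfold sg
  rcases h.sqs x with h1 | h1
  · left; exact ⟨if_pos h1, h1⟩
  · right
    refine ⟨if_neg ?_, h1⟩
    rw [h1]; exact h.ne_one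

theorem chi_eq_one {x y : G} (h1 : x * y = y * x) : chi x y = 1 := if_pos h1

theorem chi_eq_neg {x y : G} (h1 : x * y = z * (y * x)) : chi x y = -1 := by
  apply if_neg
  rw [h1]; exact h.z_mul_ne _

theorem chi_mul_right (x y y' : G) : chi x (y * y') = chi x y * chi x y' := by
  rcases h.chi_cases x y with ⟨h1, h2⟩ | ⟨h1, h2⟩ <;> rcases h.chi_cases x y' with ⟨h3, h4⟩ | ⟨h3, h4⟩
  · rw [h1, h3, h.chi_eq_one]; · norm_num
    rw [← mul_assoc, h2, mul_assoc, h4, mul_assoc]
  · rw [h1, h3, h.chi_eq_neg]; · norm_num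
    rw [← mul_assoc, h2, mul_assoc, h4, ← mul_assoc, ← h.central, mul_assoc, mul_assoc]
  · rw [h1, h3, h.chi_eq_neg]; · norm_num
    rw [← mul_assoc, h2, mul_assoc, mul_assoc, h4, mul_assoc]
  · rw [h1, h3, h.chi_eq_one]; · norm_num
    rw [← mul_assoc, h2, mul_assoc, mul_assoc, h4, ← mul_assoc y, ← h.central, mul_assoc, ← mul_assoc z, h.sq, one_mul, mul_assoc]

theorem sg_mul (x y : G) : sg (x * y) = sg x * sg y * chi x y := by
  have e : x * y * (x * y) = x * (y * x) * y := by group
  have hz := h.central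
  have key : ∀ a b : G, x * x = a → y * y = b → (∀ c : G, a * c = c * a) → (x * y = y * x → x * y * (x * y) = a * b) ∧
      (x * y = z * (y * x) → x * y * (x * y) = z * (a * b)) := by
    intro a b ha hb hac
    constructor
    · intro h1
      rw [e, ← h1]
      calc x * (x * y) * y = (x * x) * (y * y) := by group
        _ = _ := by rw [ha, hb]
    · intro h1
      have h2 : y * x = z * (x * y) := by rw [h1, ← mul_assoc, h.sq, one_mul]
      rw [e, h2]
      calc x * (z * (x * y)) * y = (x * z) * (x * (y * y)) := by group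
        _ = z * ((x * x) * (y * y)) := by rw [← hz]; group
        _ = _ := by rw [ha, hb]
  rcases h.sg_cases x with ⟨h1, h2⟩ | ⟨h1, h2⟩ <;> rcases h.sg_cases y with ⟨h3, h4⟩ | ⟨h3, h4⟩ <;>
    rcases h.chi_cases x y with ⟨h5, h6⟩ | ⟨h5, h6⟩ <;> rw [h1, h3, h5]
  · have := (key 1 1 h2 h4 (by simp)).1 h6
    rw [sg, this]; simp
  · have := (key 1 1 h2 h4 (by simp)).2 h6
    rw [sg, this]; simp [h.ne_one]
  · have := (key 1 z h2 h4 (by simp)).1 h6
    rw [sg, this]; simp [h.ne_one]
  · have := (key 1 z h2 h4 (by simp)).2 h6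
    rw [sg, this]; simp [h.sq]
  · have := (key z 1 h2 h4 hz).1 h6
    rw [sg, this]; simp [h.ne_one]
  · have := (key z 1 h2 h4 hz).2 h6
    rw [sg, this]; simp [h.sq]
  · have := (key z z h2 h4 hz).1 h6
    rw [sg, this]; simp [h.sq]
  · have := (key z z h2 h4 hz).2 h6
    rw [sg, this]; simp [h.sq, h.ne_one]

theorem sum_chi_zero [Fintype G] (x : G) (E : Subgroup G) (hx : ∃ e ∈ E, chi x e = -1) : ∑ e : E, chi x (e : G) = 0 := by
  obtain ⟨e₀, he₀, h1⟩ := hx
  have h2 : ∑ e : E, chi x (e : G) = ∑ e : E, chi x ((e * ⟨e₀, he₀⟩ : E) : G) :=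
    (Equiv.sum_comp (Equiv.mulRight (⟨e₀, he₀⟩ : E)) (fun e : E => chi x (e : G))).symm
  have h3 : ∑ e : E, chi x ((e * ⟨e₀, he₀⟩ : E) : G) = - ∑ e : E, chi x (e : G) := by
    rw [← Finset.sum_neg_distrib]
    apply Finset.sum_congr rfl
    intro e _
    rw [Subgroup.coe_mul, h.chi_mul_right, h1]; ring
  linarith

theorem sum_chi_one [Fintype G] (x : G) (E : Subgroup G) (hx : ∀ e ∈ E, x * e = e * x) : ∑ e : E, chi x (e : G) = Nat.card E := by
  rw [Finset.sum_congr rfl (fun (e : E) _ => h.chi_eq_one (hx e e.2)), Finset.sum_const, Finset.card_univ, Nat.card_eq_fintype_card]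
  simp

/-- sum of the signs of squares through the centralizer of an elementary abelian subgroup -/
theorem sum_sg [Fintype G] (E : Subgroup G) (hE : ∀ e ∈ E, e * e = 1) :
    ∑ x : G, sg x = ∑ x : G, if x ∈ Subgroup.centralizer (E : Set G) then sg x else 0 := by
  have hE0 : (Nat.card E : ℤ) ≠ 0 := by
    have := Nat.card_pos (α := E)
    omega
  have h1 : (Nat.card E : ℤ) * ∑ x : G, sg x = ∑ x : G, ∑ e : E, sg (x * e) := by
    rw [Finset.sum_comm]
    have : ∀ e : E, ∑ x : G, sg (x * e) = ∑ x : G, sg x := fun e =>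
      Equiv.sum_comp (Equiv.mulRight (e : G)) (fun x => sg x)
    rw [Finset.sum_congr rfl (fun e _ => this e), Finset.sum_const, Finset.card_univ, Nat.card_eq_fintype_card]
    simp
  have h2 : ∀ x : G, ∑ e : E, sg (x * e) = (Nat.card E : ℤ) * if x ∈ Subgroup.centralizer (E : Set G) then sg x else 0 := by
    intro x
    have h3 : ∀ e : E, sg (x * e) = sg x * chi x e := by
      intro e
      rw [h.sg_mul, show sg (e : G) = 1 from if_pos (hE e e.2), mul_one]
    rw [Finset.sum_congr rfl (fun e _ => h3 e), ← Finset.mul_sum]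
    split_ifs with hx
    · rw [Subgroup.mem_centralizer_iff] at hx
      rw [h.sum_chi_one x E (fun e he => (hx e he).symm)]
      ring
    · rw [Subgroup.mem_centralizer_iff] at hx
      push Not at hx
      obtain ⟨e, he, hne⟩ := hx
      rw [h.sum_chi_zero x E ⟨e, he, ?_⟩]
      · ring
      · exact if_neg (fun h4 => hne h4.symm)
  rw [Finset.sum_congr rfl (fun x _ => h2 x), ← Finset.mul_sum] at h1
  exact mul_left_cancel₀ hE0 h1

/-- `|E| |C_G(E)| = 2 |G|` for subgroups containing `z` -/
theorem card_mul_card [Fintype G] (E : Subgroup G) (hz : z ∈ E) :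
    Nat.card E * Nat.card (Subgroup.centralizer (E : Set G)) = 2 * Nat.card G := by
  have h1 : ∑ x : G, ∑ e : E, chi x (e : G) = (Nat.card E * Nat.card (Subgroup.centralizer (E : Set G)) : ℤ) := by
    have h2 : ∀ x : G, ∑ e : E, chi x (e : G) = if x ∈ Subgroup.centralizer (E : Set G) then (Nat.card E : ℤ) else 0 := by
      intro x
      split_ifs with hx
      · rw [Subgroup.mem_centralizer_iff] at hx
        exact h.sum_chi_one x E (fun e he => (hx e he).symm)
      · rw [Subgroup.mem_centralizer_iff] at hx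
        push Not at hx
        obtain ⟨e, he, hne⟩ := hx
        exact h.sum_chi_zero x E ⟨e, he, if_neg (fun h4 => hne h4.symm)⟩
    rw [Finset.sum_congr rfl (fun x _ => h2 x), ← Finset.sum_filter, Finset.sum_const, nsmul_eq_mul, mul_comm]
    congr 2
    rw [Nat.card_eq_fintype_card, Fintype.card_subtype]
  have h3 : ∑ x : G, ∑ e : E, chi x (e : G) = 2 * Nat.card G := by
    rw [Finset.sum_comm]
    have h4 : ∀ e : E, ∑ x : G, chi x (e : G) = if (e : G) = 1 ∨ (e : G) = z then (Nat.card G : ℤ) else 0 := by
      intro e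
      have h5 : ∑ x : G, chi x (e : G) = ∑ x : (⊤ : Subgroup G), chi (e : G) (x : G) := by
        rw [Finset.sum_congr rfl (fun x _ => chi_comm x (e : G))]
        exact (Equiv.sum_comp (Subgroup.topEquiv (G := G)).toEquiv (fun x => chi (e : G) x)).symm
      rw [h5]
      split_ifs with he
      · rw [h.sum_chi_one, Subgroup.card_top]
        intro y _
        rcases he with he | he
        · rw [he]; simp
        · rw [he]; exact h.central y
      · apply h.sum_chi_zero
        by_contra hcon
        push Not at hcon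
        apply he
        apply h.cen
        intro y
        rcases h.chi_cases e y with ⟨_, h6⟩ | ⟨h6, _⟩
        · exact h6
        · exact absurd h6 (hcon y trivial)
    rw [Finset.sum_congr rfl (fun e _ => h4 e), ← Finset.sum_filter, Finset.sum_const, nsmul_eq_mul]
    have h7 : (Finset.univ.filter (fun e : E => (e : G) = 1 ∨ (e : G) = z)) = {(1 : E), ⟨z, hz⟩} := by
      ext e
      simp only [Finset.mem_filter, Finset.mem_univ, true_and, Finset.mem_insert, Finset.mem_singleton]
      constructor
      · rintro (h8 | h8)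
        · left; exact Subtype.ext h8
        · right; exact Subtype.ext h8
      · rintro (h8 | h8)
        · left; rw [h8]; rfl
        · right; rw [h8]
    rw [h7, Finset.card_pair]
    · rfl
    · intro h8
      exact h.ne_one (congrArg (fun e : E => (e : G)) h8).symm
  have := h1.symm.trans h3
  exact_mod_cast this

/-- a maximal elementary abelian subgroup -/
theorem exists_max [Finite G] (A : Subgroup G) (hA : ∀ x ∈ A, x * x = 1) (hc : ∀ x ∈ A, ∀ y ∈ A, x * y = y * x) :
    ∃ E : Subgroup G, A ≤ E ∧ z ∈ E ∧ (∀ x ∈ E, x * x = 1) ∧ (∀ x ∈ E, ∀ y ∈ E, x * y = y * x) ∧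
      ∀ x ∈ Subgroup.centralizer (E : Set G), x ∉ E → x * x = z := by
  obtain ⟨E, hE, hmax⟩ := exists_maximal_of_wellFoundedGT
    (fun E : Subgroup G => A ≤ E ∧ (∀ x ∈ E, x * x = 1) ∧ (∀ x ∈ E, ∀ y ∈ E, x * y = y * x)) ⟨A, le_rfl, hA, hc⟩
  obtain ⟨hAE, hE2, hEc⟩ := hE
  -- adjoining a commuting involution
  have key : ∀ x ∈ Subgroup.centralizer (E : Set G), x * x = 1 → x ∈ E := by
    intro x hx hx2
    rw [Subgroup.mem_centralizer_iff] at hx
    have hrep : ∀ y, x * y ∈ E → ∃ e ∈ E, y = x * e := fun y hy => ⟨x * y, hy, by rw [← mul_assoc, hx2, one_mul]⟩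
    have hsq : ∀ e ∈ E, (x * e) * (x * e) = 1 := by
      intro e he
      calc (x * e) * (x * e) = x * (e * x) * e := by group
        _ = (x * x) * (e * e) := by rw [hx e he]; group
        _ = 1 := by rw [hx2, hE2 e he, one_mul]
    let E' : Subgroup G :=
      { carrier := {y | y ∈ E ∨ x * y ∈ E}
        one_mem' := Or.inl E.one_mem
        mul_mem' := by
          intro a b ha hb
          rcases ha with ha | ha
          · rcases hb with hb | hb
            · left; exact E.mul_mem ha hb
            · right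
              have : x * (a * b) = a * (x * b) := by rw [← mul_assoc, ← hx a ha, mul_assoc]
              rw [this]; exact E.mul_mem ha hb
          · rcases hb with hb | hb
            · right
              have : x * (a * b) = (x * a) * b := by group
              rw [this]; exact E.mul_mem ha hb
            · left
              obtain ⟨e, he, rfl⟩ := hrep a ha
              obtain ⟨f, hf, rfl⟩ := hrep b hb
              have : x * e * (x * f) = e * f := by
                calc x * e * (x * f) = x * (e * x) * f := by group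
                  _ = (x * x) * (e * f) := by rw [hx e he]; group
                  _ = _ := by rw [hx2, one_mul]
              rw [this]; exact E.mul_mem he hf
        inv_mem' := by
          intro a ha
          rcases ha with ha | ha
          · left; exact E.inv_mem ha
          · right
            obtain ⟨e, he, rfl⟩ := hrep a ha
            rw [inv_eq_of_mul_eq_one_left (hsq e he)]
            exact ha }
    have hE' : E ≤ E' := fun y hy => Or.inl hy
    have hxE' : x ∈ E' := Or.inr (by rw [hx2]; exact E.one_mem)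
    have h1 := hmax (y := E') ⟨hAE.trans hE', ?_, ?_⟩ hE'
    · exact h1 hxE'
    · rintro y (hy | hy)
      · exact hE2 y hy
      · obtain ⟨e, he, rfl⟩ := hrep y hy
        exact hsq e he
    · rintro y (hy | hy) w (hw | hw)
      · exact hEc y hy w hw
      · obtain ⟨e, he, rfl⟩ := hrep w hw
        rw [← mul_assoc, hx y hy, mul_assoc, hEc y hy e he, mul_assoc]
      · obtain ⟨e, he, rfl⟩ := hrep y hy
        rw [mul_assoc, hEc e he w hw, ← mul_assoc, ← mul_assoc, hx w hw]
      · obtain ⟨e, he, rfl⟩ := hrep y hy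
        obtain ⟨f, hf, rfl⟩ := hrep w hw
        calc x * e * (x * f) = x * (e * x) * f := by group
          _ = x * (x * (e * f)) := by rw [hx e he]; group
          _ = x * (f * x) * e := by rw [hEc e he f hf, hx f hf]; group
          _ = _ := by group
  refine ⟨E, hAE, ?_, hE2, hEc, ?_⟩
  · apply key z _ h.sq
    rw [Subgroup.mem_centralizer_iff]
    intro y _
    exact (h.central y).symm
  · intro x hx hxE
    rcases h.sqs x with h1 | h1
    · exact absurd (key x hx h1) hxE
    · exact h1

/-- with `E` maximal elementary abelian: `∑ sg = 2 |E| - |C_G(E)|` -/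
theorem sum_sg_max [Fintype G] {E : Subgroup G} (hE2 : ∀ x ∈ E, x * x = 1) (hEc : ∀ x ∈ E, ∀ y ∈ E, x * y = y * x)
    (hmax : ∀ x ∈ Subgroup.centralizer (E : Set G), x ∉ E → x * x = z) :
    ∑ x : G, sg x = 2 * (Nat.card E : ℤ) - Nat.card (Subgroup.centralizer (E : Set G)) := by
  rw [h.sum_sg E hE2]
  have h1 : ∀ x : G, (if x ∈ Subgroup.centralizer (E : Set G) then sg x else 0) =
      2 * (if x ∈ E then 1 else 0) - (if x ∈ Subgroup.centralizer (E : Set G) then 1 else 0) := by
    intro x
    by_cases hx : x ∈ E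
    · have hxC : x ∈ Subgroup.centralizer (E : Set G) := by
        rw [Subgroup.mem_centralizer_iff]
        intro y hy
        exact hEc y hy x hx
      rw [if_pos hxC, if_pos hx, if_pos hxC, sg, if_pos (hE2 x hx)]
      norm_num
    · by_cases hxC : x ∈ Subgroup.centralizer (E : Set G)
      · rw [if_pos hxC, if_neg hx, if_pos hxC, sg, if_neg]
        · norm_num
        · rw [hmax x hxC hx]; exact h.ne_one
      · rw [if_neg hxC, if_neg hx, if_neg hxC]
        norm_num
  rw [Finset.sum_congr rfl (fun x _ => h1 x), Finset.sum_sub_distrib, ← Finset.mul_sum, Finset.sum_boole, Finset.sum_boole]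
  rw [Nat.card_eq_fintype_card, Nat.card_eq_fintype_card, Fintype.card_subtype, Fintype.card_subtype]

/-- the plus case -/
theorem card_of_sum_pos [Fintype G] {n : ℕ} (hn : 0 < n) (hG : Nat.card G = 2 * n ^ 2) (hs : ∑ x : G, sg x = 2 * n) :
    ∃ E : Subgroup G, (∀ x ∈ E, x * x = 1) ∧ (∀ x ∈ E, ∀ y ∈ E, x * y = y * x) ∧ Nat.card E = 2 * n := by
  obtain ⟨E, -, hz, hE2, hEc, hmax⟩ := h.exists_max ⊥ (by simp) (by simp)
  refine ⟨E, hE2, hEc, ?_⟩
  have h1 := h.sum_sg_max hE2 hEc hmax
  have h2 := h.card_mul_card E hz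
  have hEC : E ≤ Subgroup.centralizer (E : Set G) := by
    intro x hx
    rw [Subgroup.mem_centralizer_iff]
    intro y hy
    exact hEc y hy x hx
  have h3 : Nat.card E ∣ Nat.card (Subgroup.centralizer (E : Set G)) := Subgroup.card_dvd_of_le hEC
  obtain ⟨c, hc⟩ := h3
  rw [hs, hc] at h1
  rw [hc, hG] at h2
  have hE0 : 0 < Nat.card E := Nat.card_pos
  generalize Nat.card E = m at *
  have hc1 : c = 1 := by
    rcases c with _ | _ | c
    · exfalso
      rw [mul_zero, mul_zero] at h2
      have : 0 < n ^ 2 := by positivity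
      omega
    · rfl
    · exfalso
      push_cast at h1
      have : (0 : ℤ) < m := by exact_mod_cast hE0
      have hc0 : (0 : ℤ) ≤ c := by positivity
      nlinarith
  subst hc1
  push_cast at h1
  omega

/-- the minus case -/
theorem card_lt_of_sum_neg [Fintype G] {n : ℕ} (hn : 0 < n) (hG : Nat.card G = 2 * n ^ 2) (hs : ∑ x : G, sg x = - (2 * n))
    (A : Subgroup G) (hA : ∀ x ∈ A, x * x = 1) (hc : ∀ x ∈ A, ∀ y ∈ A, x * y = y * x) : Nat.card A < 2 * n := by
  obtain ⟨E, hAE, hz, hE2, hEc, hmax⟩ := h.exists_max A hA hc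
  have hle : Nat.card A ≤ Nat.card E := Nat.le_of_dvd Nat.card_pos (Subgroup.card_dvd_of_le hAE)
  have h1 := h.sum_sg_max hE2 hEc hmax
  have h2 := h.card_mul_card E hz
  rw [hs] at h1
  rw [hG] at h2
  have hE0 : 0 < Nat.card E := Nat.card_pos
  generalize Nat.card E = m at *
  generalize Nat.card (Subgroup.centralizer (E : Set G)) = k at *
  -- k = 2m + 2n, m k = 4 n^2
  have h4 : k = 2 * m + 2 * n := by omega
  subst h4
  by_contra hcon
  push Not at hcon
  have h5 : 2 * n ≤ m := hcon.trans hle
  nlinarith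

end ExSp

end Cfsg.Agent.Asch.ExtraCount
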